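import Mathlib
import Cfsg.Agent.SLThreePres.Bound
import Cfsg.Agent.SLTwoPres.Unipotent
import Cfsg.Agent.Classical.Linear.Generation
import Cfsg.Agent.Classical.Linear.Card

/-!
The matrices satisfying the relations of `SLThreePres.Bound`, and their generation of `SL₃`.
-/

set_option autoImplicit false

namespace CfsgLib.SLThreePres

open CfsgLib.SLTwoPres
open CfsgLib.Psl2Unipotent (upperU diagA)

variable {F : Type*} [Field F]

/-- `SL₂` in the upper left corner of `SL₃`. -/
def corner : Matrix.SpecialLinearGroup (Fin 2) F →* Matrix.SpecialLinearGroup (Fin 3) F where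
  toFun g := ⟨!![g.1 0 0, g.1 0 1, 0; g.1 1 0, g.1 1 1, 0; 0, 0, 1], by
    have h := g.det_coe
    rw [Matrix.det_fin_two] at h
    simp [Matrix.det_fin_three]
    linear_combination h⟩
  map_one' := by
    apply Subtype.ext
    simp [Matrix.one_fin_three]
  map_mul' a b := by
    apply Subtype.ext
    show _ = !![a.1 0 0, a.1 0 1, 0; a.1 1 0, a.1 1 1, 0; 0, 0, 1] *
      !![b.1 0 0, b.1 0 1, 0; b.1 1 0, b.1 1 1, 0; 0, 0, 1]
    simp [Matrix.mul_fin_three, Matrix.mul_apply, Fin.sum_univ_two]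

@[simp] theorem coe_corner (g : Matrix.SpecialLinearGroup (Fin 2) F) :
    ((corner g : Matrix.SpecialLinearGroup (Fin 3) F) : Matrix (Fin 3) (Fin 3) F) =
      !![g.1 0 0, g.1 0 1, 0; g.1 1 0, g.1 1 1, 0; 0, 0, 1] := rfl

/-- The cyclic permutation matrix `e₀ ↦ e₁ ↦ e₂ ↦ e₀`. -/
def cycleSL : Matrix.SpecialLinearGroup (Fin 3) F :=
  ⟨!![0, 0, 1; 1, 0, 0; 0, 1, 0], by simp [Matrix.det_fin_three]⟩

/-- Inverse of the cyclic permutation matrix. -/
theorem coe_cycleSL_inv :
    (((cycleSL : Matrix.SpecialLinearGroup (Fin 3) F)⁻¹ : Matrix.SpecialLinearGroup (Fin 3) F) :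
      Matrix (Fin 3) (Fin 3) F) = !![0, 1, 0; 0, 0, 1; 1, 0, 0] := by
  have h : ((cycleSL : Matrix.SpecialLinearGroup (Fin 3) F) : Matrix (Fin 3) (Fin 3) F) *
      !![0, 1, 0; 0, 0, 1; 1, 0, 0] = 1 := by
    simp [cycleSL, Matrix.mul_fin_three, Matrix.one_fin_three]
  have h2 : (((cycleSL : Matrix.SpecialLinearGroup (Fin 3) F)⁻¹ :
      Matrix.SpecialLinearGroup (Fin 3) F) : Matrix (Fin 3) (Fin 3) F) *
      ((cycleSL : Matrix.SpecialLinearGroup (Fin 3) F) : Matrix (Fin 3) (Fin 3) F) = 1 := by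
    rw [← Matrix.SpecialLinearGroup.coe_mul, inv_mul_cancel, Matrix.SpecialLinearGroup.coe_one]
  exact left_inv_eq_right_inv h2 h

theorem corner_weylSL_inv :
    (((corner weylSL : Matrix.SpecialLinearGroup (Fin 3) F)⁻¹ : Matrix.SpecialLinearGroup (Fin 3) F) :
      Matrix (Fin 3) (Fin 3) F) = !![0, -1, 0; 1, 0, 0; 0, 0, 1] := by
  rw [← map_inv, coe_corner]
  simp [Matrix.SpecialLinearGroup.coe_inv, Matrix.adjugate_fin_two]

theorem corner_diag_inv (ζ : Fˣ) :
    (((corner (diagA ζ) : Matrix.SpecialLinearGroup (Fin 3) F)⁻¹ :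
      Matrix.SpecialLinearGroup (Fin 3) F) : Matrix (Fin 3) (Fin 3) F) =
      !![((ζ⁻¹ : Fˣ) : F), 0, 0; 0, (ζ : F), 0; 0, 0, 1] := by
  rw [← map_inv, coe_corner]
  simp [Matrix.SpecialLinearGroup.coe_inv, Matrix.adjugate_fin_two]

theorem slData_corner (ζ : Fˣ) :
    SLData ζ (fun t : F => corner (upperU t)) (corner (diagA ζ)) (corner weylSL) := by
  have D := slData_matrix (F := F) ζ
  exact
    { add := fun s t => by rw [D.add, map_mul]
      conj_x := fun t => by rw [← D.conj_x, map_mul, map_mul, map_inv]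
      conj_h := by rw [← map_inv, ← map_mul, ← map_mul, D.conj_h, map_inv]
      rel_one := by
        have := congrArg corner D.rel_one
        simpa [weylWord, map_mul, map_inv] using this
      rel_zeta := by
        have := congrArg corner D.rel_zeta
        simpa [weylWord, map_mul, map_inv] using this }

theorem coe_corner_upperU (t : F) :
    ((corner (upperU t) : Matrix.SpecialLinearGroup (Fin 3) F) : Matrix (Fin 3) (Fin 3) F) =
      !![1, t, 0; 0, 1, 0; 0, 0, 1] := by
  simp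

theorem coe_corner_weylSL :
    ((corner weylSL : Matrix.SpecialLinearGroup (Fin 3) F) : Matrix (Fin 3) (Fin 3) F) =
      !![0, 1, 0; -1, 0, 0; 0, 0, 1] := by
  simp

theorem coe_corner_diag (ζ : Fˣ) :
    ((corner (diagA ζ) : Matrix.SpecialLinearGroup (Fin 3) F) : Matrix (Fin 3) (Fin 3) F) =
      !![(ζ : F), 0, 0; 0, ((ζ⁻¹ : Fˣ) : F), 0; 0, 0, 1] := by
  simp

theorem sl3Data_matrix (ζ : Fˣ) (S₀ : Set F) :
    SL3Data ζ (fun t : F => corner (upperU t)) (corner (diagA ζ)) (corner weylSL) cycleSL S₀ where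
  sl2 := slData_corner ζ
  rel_c := by
    apply Subtype.ext
    simp only [Matrix.SpecialLinearGroup.coe_mul]
    rw [coe_cycleSL_inv, coe_corner_weylSL]
    simp [cycleSL, Matrix.mul_fin_three]
  rel_hh := by
    apply Subtype.ext
    simp only [Matrix.SpecialLinearGroup.coe_mul]
    rw [coe_cycleSL_inv, coe_corner_diag]
    simp [cycleSL, Matrix.mul_fin_three, mul_comm]
  rel_hv := by
    apply Subtype.ext
    simp only [Matrix.SpecialLinearGroup.coe_mul]
    rw [coe_cycleSL_inv, corner_diag_inv, coe_corner_diag, coe_corner_upperU, coe_corner_upperU]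
    simp [cycleSL, Matrix.mul_fin_three]
  rel_wh := by
    apply Subtype.ext
    simp only [Matrix.SpecialLinearGroup.coe_mul]
    rw [coe_cycleSL_inv, corner_weylSL_inv, coe_corner_weylSL, coe_corner_diag]
    simp [cycleSL, Matrix.mul_fin_three]
  rel_comm s _ := by
    apply Subtype.ext
    simp only [Matrix.SpecialLinearGroup.coe_mul]
    rw [coe_cycleSL_inv, corner_weylSL_inv, coe_corner_weylSL, coe_corner_upperU,
      coe_corner_upperU]
    simp [cycleSL, Matrix.mul_fin_three]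
  rel_cent s _ := by
    apply Subtype.ext
    simp only [Matrix.SpecialLinearGroup.coe_mul]
    rw [coe_cycleSL_inv, corner_weylSL_inv, coe_corner_weylSL, coe_corner_upperU,
      coe_corner_upperU]
    simp [cycleSL, Matrix.mul_fin_three, add_comm]

/-- `corner (SL₂)` and the cyclic permutation generate `SL₃`. -/
theorem eq_top_of_generators [Fintype F] {ζ : Fˣ} (hζ : ∀ u : Fˣ, u ∈ Subgroup.zpowers ζ)
    (H : Subgroup (Matrix.SpecialLinearGroup (Fin 3) F))
    (hx : ∀ t, corner (upperU t) ∈ H) (hh : corner (diagA ζ) ∈ H) (hw : corner weylSL ∈ H)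
    (hc : cycleSL ∈ H) : H = ⊤ := by
  have hall : ∀ g, corner g ∈ H := fun g =>
    mem_of_generators hζ (H.comap corner) hx hh hw g
  apply CfsgLib.Classical.Linear.eq_top_of_transvection_mem
  intro i j hij a
  have h01 : Matrix.SpecialLinearGroup.transvection (show (0 : Fin 3) ≠ 1 by decide) a ∈ H := by
    convert hx a using 1
    apply Subtype.ext
    ext r s
    fin_cases r <;> fin_cases s <;>
      simp [CfsgLib.Classical.Linear.transvection_apply]
  have h10 : Matrix.SpecialLinearGroup.transvection (show (1 : Fin 3) ≠ 0 by decide) a ∈ H := by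
    convert hall ⟨!![1, 0; a, 1], by simp [Matrix.det_fin_two]⟩ using 1
    apply Subtype.ext
    show _ = !![(1 : F), 0, 0; a, 1, 0; 0, 0, 1]
    ext r s
    fin_cases r <;> fin_cases s <;>
      simp [CfsgLib.Classical.Linear.transvection_apply]
  have cyc : ∀ (i j i' j' : Fin 3) (hij : i ≠ j) (hij' : i' ≠ j'), i' = i + 1 → j' = j + 1 →
      Matrix.SpecialLinearGroup.transvection hij a ∈ H →
      Matrix.SpecialLinearGroup.transvection hij' a ∈ H := by
    intro i j i' j' h h' ei ej hm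
    have this : cycleSL * Matrix.SpecialLinearGroup.transvection h a =
        Matrix.SpecialLinearGroup.transvection h' a * cycleSL := by
      subst ei
      subst ej
      refine CfsgLib.SLRegGen.conj_transvection _ h h' a a 1 1 ?_ ?_ rfl
      · funext r
        rw [Matrix.mulVec_single_one]
        fin_cases i <;> fin_cases r <;> simp [cycleSL]
      · funext r
        rw [Matrix.single_one_vecMul]
        fin_cases j <;> fin_cases r <;> simp [cycleSL]
    rw [show Matrix.SpecialLinearGroup.transvection h' a =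
        cycleSL * Matrix.SpecialLinearGroup.transvection h a * cycleSL⁻¹ by
      rw [this, mul_inv_cancel_right]]
    exact H.mul_mem (H.mul_mem hc hm) (H.inv_mem hc)
  have h12 := cyc 0 1 1 2 (by decide) (by decide) rfl rfl h01
  have h20 := cyc 1 2 2 0 (by decide) (by decide) rfl rfl h12
  have h21 := cyc 1 0 2 1 (by decide) (by decide) rfl rfl h10
  have h02 := cyc 2 1 0 2 (by decide) (by decide) rfl rfl h21
  fin_cases i <;> fin_cases j <;> first | exact absurd rfl hij | assumption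

theorem card_bound [Fintype F] :
    Nat.card F ^ 2 * Nat.card (Matrix.SpecialLinearGroup (Fin 2) F) *
      (Nat.card F - 1) * (1 + Nat.card F + Nat.card F ^ 2) ≤
      Nat.card (Matrix.SpecialLinearGroup (Fin 3) F) := by
  classical
  have hq := Fintype.one_lt_card (α := F)
  have h2 := CfsgLib.Classical.Linear.card_sl (F := F) 2 (by norm_num)
  have h3 := CfsgLib.Classical.Linear.card_sl (F := F) 3 (by norm_num)
  rw [Fin.prod_univ_two] at h2
  rw [Fin.prod_univ_three] at h3
  simp only [Fin.val_zero, Fin.val_one, Fin.val_two, pow_zero, pow_one] at h2 h3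
  rw [Nat.card_eq_fintype_card (α := F)]
  obtain ⟨k, hk⟩ : ∃ k, Fintype.card F = k + 2 := ⟨Fintype.card F - 2, by omega⟩
  rw [hk] at h2 h3 ⊢
  refine le_of_mul_le_mul_left (a := k + 1) ?_ (Nat.succ_pos k)
  rw [show k + 2 - 1 = k + 1 by omega] at h2 h3 ⊢
  rw [h3]
  have e : (k + 1) * ((k + 2) ^ 2 * Nat.card (Matrix.SpecialLinearGroup (Fin 2) F) * (k + 1) *
      (1 + (k + 2) + (k + 2) ^ 2)) =
      ((k + 1) * Nat.card (Matrix.SpecialLinearGroup (Fin 2) F)) *
        ((k + 2) ^ 2 * (k + 1) * (1 + (k + 2) + (k + 2) ^ 2)) := by ring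
  rw [e, h2]
  have a1 : (k + 2) ^ 2 - 1 = k ^ 2 + 4 * k + 3 := by
    rw [show (k + 2) ^ 2 = k ^ 2 + 4 * k + 3 + 1 by ring, Nat.add_sub_cancel]
  have a2 : (k + 2) ^ 2 - (k + 2) = k ^ 2 + 3 * k + 2 := by
    rw [show (k + 2) ^ 2 = k ^ 2 + 3 * k + 2 + (k + 2) by ring, Nat.add_sub_cancel]
  have b1 : (k + 2) ^ 3 - 1 = k ^ 3 + 6 * k ^ 2 + 12 * k + 7 := by
    rw [show (k + 2) ^ 3 = k ^ 3 + 6 * k ^ 2 + 12 * k + 7 + 1 by ring, Nat.add_sub_cancel]
  have b2 : (k + 2) ^ 3 - (k + 2) = k ^ 3 + 6 * k ^ 2 + 11 * k + 6 := by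
    rw [show (k + 2) ^ 3 = k ^ 3 + 6 * k ^ 2 + 11 * k + 6 + (k + 2) by ring, Nat.add_sub_cancel]
  have b3 : (k + 2) ^ 3 - (k + 2) ^ 2 = k ^ 3 + 5 * k ^ 2 + 8 * k + 4 := by
    rw [show (k + 2) ^ 3 = k ^ 3 + 5 * k ^ 2 + 8 * k + 4 + (k + 2) ^ 2 by ring, Nat.add_sub_cancel]
  rw [a1, a2, b1, b2, b3]
  exact le_of_eq (by ring)

end CfsgLib.SLThreePres
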